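import Mathlib

/-!
# Counting double cosets of a normal subgroup of a 2-group modulo 2 (helper735)

`odd_card`: `U` a 2-group normalizing `V`, `T` of odd order normalizing `U` and `V`; if the `g` with
`U g U = V g V` are, up to `T`, exactly the three elements `w 0, w 1, w 2`, then `|V\G/V|` is odd.
-/

set_option autoImplicit false
set_option linter.unusedSectionVars false

namespace Cfsg.Agent.H735.EB

universe u

variable {G : Type u} [Group G]

/-- `g ∈ V k V` -/
def Db (V : Subgroup G) (k g : G) : Prop := ∃ v ∈ V, ∃ v' ∈ V, g = v * k * v'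

/-- `U k U = V k V` -/
def Fx (U V : Subgroup G) (k : G) : Prop := ∀ u ∈ U, ∀ u' ∈ U, Db V k (u * k * u')

theorem Db.symm {V : Subgroup G} {k g : G} (h : Db V k g) : Db V g k := by
  obtain ⟨v, hv, v', hv', rfl⟩ := h
  exact ⟨v⁻¹, inv_mem hv, v'⁻¹, inv_mem hv', by group⟩

theorem Db.trans {V : Subgroup G} {k g l : G} (h : Db V k g) (h' : Db V g l) : Db V k l := by
  obtain ⟨v, hv, v', hv', rfl⟩ := h
  obtain ⟨a, ha, a', ha', rfl⟩ := h'
  exact ⟨a * v, mul_mem ha hv, v' * a', mul_mem hv' ha', by group⟩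

/-- the action of the normalizer on the double cosets -/
@[instance_reducible] def actN (N V : Subgroup G) (hn : N ≤ Subgroup.normalizer (V : Set G)) :
    MulAction (N × N) (DoubleCoset.Quotient (V : Set G) (V : Set G)) where
  smul a := Quotient.map (fun g => (a.1 : G) * g * (a.2 : G)⁻¹) (by
    intro x y hxy
    have h1 := DoubleCoset.rel_iff.1 hxy
    obtain ⟨v, hv, v', hv', rfl⟩ := h1
    refine DoubleCoset.rel_iff.2 ⟨a.1 * v * (a.1 : G)⁻¹, (Subgroup.mem_normalizer_iff.1 (hn a.1.2) v).1 hv,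
      a.2 * v' * (a.2 : G)⁻¹, (Subgroup.mem_normalizer_iff.1 (hn a.2.2) v').1 hv', ?_⟩
    group)
  one_smul q := by
    induction q using Quotient.inductionOn with
    | _ g =>
    change Quotient.mk _ (((1 : N) : G) * g * ((1 : N) : G)⁻¹) = _
    rw [OneMemClass.coe_one, one_mul, inv_one, mul_one]
  mul_smul a b q := by
    induction q using Quotient.inductionOn with
    | _ g =>
    change Quotient.mk _ (((a.1 * b.1 : N) : G) * g * ((a.2 * b.2 : N) : G)⁻¹) =
      Quotient.mk _ ((a.1 : G) * ((b.1 : G) * g * (b.2 : G)⁻¹) * (a.2 : G)⁻¹)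
    congr 1
    rw [Subgroup.coe_mul, Subgroup.coe_mul]
    group

/-- the double coset `V g V` -/
def dc (V : Subgroup G) (g : G) : DoubleCoset.Quotient (V : Set G) (V : Set G) :=
  Quotient.mk (DoubleCoset.setoid (V : Set G) (V : Set G)) g

theorem mk_eq_iff {V : Subgroup G} {g k : G} : (dc V k = dc V g) ↔ Db V k g :=
  ⟨fun h => DoubleCoset.rel_iff.1 (Quotient.exact h), fun h => Quotient.sound (DoubleCoset.rel_iff.2 h)⟩

theorem dc_surj {V : Subgroup G} (q : DoubleCoset.Quotient (V : Set G) (V : Set G)) : ∃ g, dc V g = q :=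
  Quotient.exists_rep q

theorem actN_dc (N V : Subgroup G) (hn : N ≤ Subgroup.normalizer (V : Set G)) (a : N × N) (g : G) :
    letI := actN N V hn
    a • dc V g = dc V ((a.1 : G) * g * (a.2 : G)⁻¹) := rfl

variable [Finite G]

theorem odd_card {U V T : Subgroup G} (hU : IsPGroup 2 U) (hUV : U ≤ Subgroup.normalizer (V : Set G))
    (hTV : T ≤ Subgroup.normalizer (V : Set G)) (hTU : ∀ t ∈ T, ∀ u ∈ U, t * u * t⁻¹ ∈ U)
    (hT : Odd (Nat.card T)) (w : Fin 3 → G) (hw : ∀ i, Fx U V (w i))
    (hc : ∀ g, Fx U V g → ∃ i, ∃ t ∈ T, Db V g (t * w i))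
    (hd : ∀ i j, ∀ t ∈ T, Db V (t * w i) (w j) → i = j) :
    Odd (Nat.card (DoubleCoset.Quotient (V : Set G) (V : Set G))) := by
  classical
  have h2 : Fact (Nat.Prime 2) := ⟨Nat.prime_two⟩
  have hfQ : Finite (DoubleCoset.Quotient (V : Set G) (V : Set G)) := Quotient.finite _
  let a1 := actN U V hUV
  have hP : IsPGroup 2 (U × U) := by
    obtain ⟨m, hm⟩ := IsPGroup.iff_card.1 hU
    refine IsPGroup.of_card (n := m + m) ?_
    rw [Nat.card_prod, hm, pow_add]
  have h1 := hP.card_modEq_card_fixedPoints (DoubleCoset.Quotient (V : Set G) (V : Set G))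
  have hfix : ∀ g : G, dc V g ∈
      MulAction.fixedPoints (U × U) (DoubleCoset.Quotient (V : Set G) (V : Set G)) ↔ Fx U V g := by
    intro g
    rw [MulAction.mem_fixedPoints]
    constructor
    · intro h u hu u' hu'
      have h3 := h (⟨u, hu⟩, ⟨u'⁻¹, inv_mem hu'⟩)
      change dc V (u * g * (u'⁻¹)⁻¹) = _ at h3
      rw [inv_inv] at h3
      exact mk_eq_iff.1 h3.symm
    · rintro h ⟨u, u'⟩
      change dc V ((u : G) * g * (u' : G)⁻¹) = _
      exact (mk_eq_iff.2 (h _ u.2 _ (inv_mem u'.2))).symm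
  -- the torus
  let O : Fin 3 → Set (DoubleCoset.Quotient (V : Set G) (V : Set G)) :=
    fun i => {q | ∃ t ∈ T, q = dc V (t * w i)}
  have hO : ∀ i, Odd (O i).ncard := by
    intro i
    let a2 := actN T V hTV
    let a3 : MulAction T (DoubleCoset.Quotient (V : Set G) (V : Set G)) :=
      MulAction.compHom _ (MonoidHom.inl T T)
    have h3 : O i = MulAction.orbit T (dc V (w i)) := by
      ext q
      constructor
      · rintro ⟨t, ht, rfl⟩
        refine ⟨⟨t, ht⟩, ?_⟩
        change dc V (t * w i * ((1 : T) : G)⁻¹) = _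
        rw [OneMemClass.coe_one, inv_one, mul_one]
      · rintro ⟨t, rfl⟩
        refine ⟨t, t.2, ?_⟩
        change dc V ((t : G) * w i * ((1 : T) : G)⁻¹) = _
        rw [OneMemClass.coe_one, inv_one, mul_one]
    rw [h3, ← Nat.card_coe_set_eq]
    have h4 : Nat.card (MulAction.orbit T (dc V (w i))) ∣ Nat.card T := by
      have h5 := Nat.card_congr (MulAction.orbitProdStabilizerEquivGroup T (dc V (w i)))
      rw [Nat.card_prod] at h5
      rw [← h5]
      exact Dvd.intro _ rfl
    exact hT.of_dvd_nat h4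
  have hdis : ∀ i j, i ≠ j → Disjoint (O i) (O j) := by
    intro i j hij
    rw [Set.disjoint_left]
    rintro q ⟨t, ht, rfl⟩ ⟨t', ht', h3⟩
    apply hij
    have h4 := mk_eq_iff.1 h3
    refine hd i j (t'⁻¹ * t) (mul_mem (inv_mem ht') ht) ?_
    obtain ⟨v, hv, v', hv', h5⟩ := h4
    refine ⟨t'⁻¹ * v * t', ?_, v', hv', ?_⟩
    · have h6 := (Subgroup.mem_normalizer_iff.1 (hTV (inv_mem ht')) v).1 hv
      rwa [inv_inv] at h6
    · have h6 : w j = t'⁻¹ * (t' * w j) := by group
      rw [h6, h5]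
      group
  have hun : MulAction.fixedPoints (U × U) (DoubleCoset.Quotient (V : Set G) (V : Set G)) = O 0 ∪ O 1 ∪ O 2 := by
    ext q
    obtain ⟨g, rfl⟩ := dc_surj q
    rw [hfix]
    constructor
    · intro h
      obtain ⟨i, t, ht, h3⟩ := hc g h
      have h4 : dc V g ∈ O i := ⟨t, ht, mk_eq_iff.2 h3⟩
      fin_cases i
      · exact Or.inl (Or.inl h4)
      · exact Or.inl (Or.inr h4)
      · exact Or.inr h4
    · intro h
      have h4 : ∃ i, dc V g ∈ O i := by
        rcases h with (h | h) | h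
        · exact ⟨0, h⟩
        · exact ⟨1, h⟩
        · exact ⟨2, h⟩
      obtain ⟨i, t, ht, h5⟩ := h4
      have h6 := mk_eq_iff.1 h5
      -- `t w` is fixed
      have h7 : Fx U V (t * w i) := by
        intro u hu u' hu'
        have h8 : t⁻¹ * u * t ∈ U := by
          have := hTU t⁻¹ (inv_mem ht) u hu
          rwa [inv_inv] at this
        obtain ⟨v, hv, v', hv', h9⟩ := hw i _ h8 u' hu'
        refine ⟨t * v * t⁻¹, (Subgroup.mem_normalizer_iff.1 (hTV ht) v).1 hv, v', hv', ?_⟩
        have h10 : u * (t * w i) * u' = t * ((t⁻¹ * u * t) * w i * u') := by group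
        rw [h10, h9]
        group
      intro u hu u' hu'
      obtain ⟨v, hv, v', hv', h8⟩ := h6.symm
      have h9 : Db V (t * w i) (u * g * u') := by
        rw [h8]
        have h10 : u * (v * (t * w i) * v') * u' = (u * v * u⁻¹) * (u * (t * w i) * u') * (u'⁻¹ * v' * u') := by
          group
        rw [h10]
        obtain ⟨x, hx, x', hx', h11⟩ := h7 u hu u' hu'
        rw [h11]
        refine ⟨u * v * u⁻¹ * x, mul_mem ((Subgroup.mem_normalizer_iff.1 (hUV hu) v).1 hv) hx,
          x' * (u'⁻¹ * v' * u'), mul_mem hx' ?_, by group⟩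
        have h12 := (Subgroup.mem_normalizer_iff.1 (hUV (inv_mem hu')) v').1 hv'
        rwa [inv_inv] at h12
      exact h6.trans h9
  have hcard : Nat.card (MulAction.fixedPoints (U × U) (DoubleCoset.Quotient (V : Set G) (V : Set G))) =
      (O 0).ncard + (O 1).ncard + (O 2).ncard := by
    rw [Nat.card_coe_set_eq, hun, Set.ncard_union_eq, Set.ncard_union_eq (hdis 0 1 (by decide))]
    rw [Set.disjoint_union_left]
    exact ⟨hdis 0 2 (by decide), hdis 1 2 (by decide)⟩
  unfold Nat.ModEq at h1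
  rw [hcard] at h1
  rw [Nat.odd_iff, h1, ← Nat.odd_iff]
  exact ((hO 0).add_odd (hO 1)).add_odd (hO 2)

end Cfsg.Agent.H735.EB
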