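import Cfsg.Agent.H735.EB.DCount
import Cfsg.Agent.KFacts.TwF4.AutNorm
import Cfsg.Agent.KFacts.TwF4.Rot
import Cfsg.Agent.KFacts.TwF4.Perf

/-!
# `²F₄(q)`, `q ≥ 8`: a subgroup of a Sylow 2-subgroup with an odd number of double cosets (helper735)

`U = ⟨X_1, …, X_8⟩`, `V = ⟨X_2, …, X_8⟩`: `odd_dc : Odd |V\G/V|`; centralizers of involutions: `charTwo`.
-/

set_option autoImplicit false
set_option linter.unusedSectionVars false

namespace Cfsg.Agent.H735.EB.TwF4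

open Cfsg.Agent.SplitTwo Cfsg.Agent.SplitTwo.ZS Cfsg.Agent.TitsThree.RankTwoZ Cfsg.Agent.TitsThree.RankTwoRGD
open Cfsg.Agent.SplitTwo.RootSysZ
open Cfsg.Agent.KFacts.TwF4 Cfsg.Agent.KFacts.TwF4.Arc Cfsg.Agent.KFacts.TwF4.SylU Cfsg.Agent.KFacts.TwF4.AutNorm
open Cfsg.Agent.KFacts.TwF4.Inv Cfsg.Agent.KFacts.TwF4.Perf

universe u

variable {F : Type*} [Field F] {σ : F →+* F} {G : Type u} [Group G] (S : Full σ G)

/-- `U ∩ U⁻ = 1` -/
def Opp : Prop := ∀ y, y ∈ J S.XZ 1 8 → y ∈ J S.XZ 9 16 → y = 1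

variable {S}

theorem J_dn_le : J S.XZ (-7) 0 ≤ J S.XZ 9 16 := by
  refine J_le fun k h1 h2 => ?_
  have h3 := S.zsys8.per k
  rw [← h3]
  exact X_le_J (by omega) (by omega)

theorem inter_up (ho : Opp S) {a b : ℤ} (h1 : 1 ≤ a) (h2 : b ≤ 16) (h3 : b < a + 8) {y : G}
    (hy : y ∈ J S.XZ 1 8) (hy' : y ∈ J S.XZ a b) : y ∈ J S.XZ a 8 := by
  rcases le_or_gt b 8 with hb | hb
  · exact J_mono le_rfl hb hy'
  rcases le_or_gt 9 a with ha | ha
  · rw [ho y hy (J_mono ha h2 hy')]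
    exact one_mem _
  obtain ⟨p, hp, q, hq, rfl⟩ := S.zsys8.split (a := a) (b := b) (c := 9) (by omega) (by omega) (by omega) hy'
  have hp' : p ∈ J S.XZ a 8 := J_mono le_rfl (by omega) hp
  have hq1 : q = 1 := by
    refine ho q ?_ (J_mono le_rfl h2 hq)
    have e : q = p⁻¹ * (p * q) := by group
    rw [e]
    exact mul_mem (inv_mem (J_mono h1 le_rfl hp')) hy
  rw [hq1, mul_one]
  exact hp'

theorem inter_dn (ho : Opp S) {a b : ℤ} (h1 : -7 ≤ a) (h2 : b ≤ 8) (h3 : b < a + 8) {y : G}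
    (hy : y ∈ J S.XZ 1 8) (hy' : y ∈ J S.XZ a b) : y ∈ J S.XZ 1 b := by
  rcases le_or_gt 1 a with ha | ha
  · exact J_mono ha le_rfl hy'
  rcases le_or_gt b 0 with hb | hb
  · rw [ho y hy (J_dn_le (J_mono h1 hb hy'))]
    exact one_mem _
  obtain ⟨p, hp, q, hq, rfl⟩ := S.zsys8.split (a := a) (b := b) (c := 1) (by omega) (by omega) (by omega) hy'
  have hq' : q ∈ J S.XZ 1 8 := J_mono le_rfl h2 hq
  have hp1 : p = 1 := by
    refine ho p ?_ (J_dn_le (J_mono h1 (by omega) hp))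
    have e : p = (p * q) * q⁻¹ := by group
    rw [e]
    exact mul_mem hy (inv_mem hq')
  rw [hp1, one_mul]
  exact hq

theorem V_le_U : J S.XZ 2 8 ≤ J S.XZ 1 8 := J_mono (by norm_num) le_rfl

theorem U_norm_V : J S.XZ 1 8 ≤ Subgroup.normalizer (J S.XZ 2 8 : Set G) :=
  le_trans (J_mono (by norm_num) (by norm_num)) (S.zsys8.le_normalizer (a := 2) (b := 8) (by norm_num))

theorem T_norm (a b : ℤ) : S.T ≤ Subgroup.normalizer (J S.XZ a b : Set G) := by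
  intro t ht
  rw [Subgroup.mem_normalizer_iff]
  intro x
  refine ⟨fun hx => S.T_conj_J ht hx, fun hx => ?_⟩
  have h1 := S.T_conj_J (inv_mem ht) hx
  have e : t⁻¹ * (t * x * t⁻¹) * t⁻¹⁻¹ = x := by group
  rwa [e] at h1

theorem exists_x : ∃ x ∈ S.XZ 1, x ∉ J S.XZ 2 8 := by
  obtain ⟨x, hx, hx1⟩ := S.zsys8.exists_ne 1
  exact ⟨x, hx, fun h => hx1 (S.zsys8.inter 1 x hx (J_mono (by norm_num) (by norm_num) h))⟩

/-- inverse of a rotation -/
theorem maps_inv_add {w : G} {c : ℤ} (h : Maps S.R.X w (fun k => ((2 * c : ℤ) : ZMod (2 * 8)) + k)) :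
    Maps S.R.X w⁻¹ (fun k => ((2 * (-c) : ℤ) : ZMod (2 * 8)) + k) :=
  (h.inv (g := fun k => ((2 * (-c) : ℤ) : ZMod (2 * 8)) + k) fun k => by push_cast; ring)

theorem maps_inv_sub {w : G} {c : ℤ} (h : Maps S.R.X w (fun k => ((2 * c : ℤ) : ZMod (2 * 8)) - k)) :
    Maps S.R.X w⁻¹ (fun k => ((2 * c : ℤ) : ZMod (2 * 8)) - k) :=
  h.inv fun k => by ring

/-- first obstruction -/
theorem obst (ho : Opp S) {w : G} (hw : Fx (J S.XZ 1 8) (J S.XZ 2 8) w) {a : ℤ} (h1 : 2 ≤ a) (h2 : a ≤ 10)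
    (hc : ∀ v ∈ J S.XZ 2 8, w * v * w⁻¹ ∈ J S.XZ a (a + 6)) : False := by
  obtain ⟨x, hx, hx1⟩ := exists_x (S := S)
  have hxU : x ∈ J S.XZ 1 8 := mem_J hx (by norm_num) (by norm_num)
  obtain ⟨v, hv, v', hv', e⟩ := hw x hxU 1 (one_mem _)
  rw [mul_one] at e
  have e1 : v⁻¹ * x = w * v' * w⁻¹ := by
    have : v⁻¹ * x = v⁻¹ * (x * w) * w⁻¹ := by group
    rw [this, e]
    group
  have h3 := hc v' hv'
  rw [← e1] at h3
  have h4 : v⁻¹ * x ∈ J S.XZ 1 8 := mul_mem (inv_mem (V_le_U hv)) hxU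
  have h5 := inter_up ho (by omega) (by omega) (by omega) h4 h3
  have h6 : v⁻¹ * x ∈ J S.XZ 2 8 := J_mono h1 le_rfl h5
  apply hx1
  have e2 : x = v * (v⁻¹ * x) := by group
  rw [e2]
  exact mul_mem hv h6

theorem Fx_inv {U V : Subgroup G} {w : G} (hw : Fx U V w) : Fx U V w⁻¹ := by
  intro u hu u' hu'
  obtain ⟨v, hv, v', hv', e⟩ := hw u'⁻¹ (inv_mem hu') u⁻¹ (inv_mem hu)
  refine ⟨v'⁻¹, inv_mem hv', v⁻¹, inv_mem hv, ?_⟩
  have e1 : u * w⁻¹ * u' = (u'⁻¹ * w * u⁻¹)⁻¹ := by group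
  rw [e1, e]
  group

theorem bad_add (ho : Opp S) {w : G} {c : ℤ}
    (h : Maps S.R.X w (fun k => ((2 * c : ℤ) : ZMod (2 * 8)) + k)) :
    ¬ Fx (J S.XZ 1 8) (J S.XZ 2 8) w := by
  intro hw
  obtain ⟨c', h1, h2, h3⟩ := Full.reduce c (-3)
  rw [h3] at h
  rcases le_or_gt 0 c' with hc | hc
  · refine obst ho hw (a := 2 * c' + 2) (by omega) (by omega) fun v hv => ?_
    exact J_mono (by omega) (by omega) (S.map_add h hv)
  · refine obst ho (Fx_inv hw) (a := 2 * (-c') + 2) (by omega) (by omega) fun v hv => ?_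
    exact J_mono (by omega) (by omega) (S.map_add (maps_inv_add h) hv)

theorem bad_sub (ho : Opp S) {w : G} {c : ℤ}
    (h : Maps S.R.X w (fun k => ((2 * c : ℤ) : ZMod (2 * 8)) - k)) (h1 : 5 ≤ c) (h2 : c ≤ 9) :
    ¬ Fx (J S.XZ 1 8) (J S.XZ 2 8) w := by
  intro hw
  refine obst ho hw (a := 2 * c - 8) (by omega) (by omega) fun v hv => ?_
  exact J_mono (by omega) (by omega) (S.map_sub h hv)

theorem good_sub {w : G} {c : ℤ} (h : Maps S.R.X w (fun k => ((2 * c : ℤ) : ZMod (2 * 8)) - k))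
    (h1 : 2 ≤ c) (h2 : c ≤ 4) : Fx (J S.XZ 1 8) (J S.XZ 2 8) w := by
  intro u hu u' hu'
  obtain ⟨v, hv, x, hx, rfl⟩ := S.zsys8.split_lr (a := 1) (b := 8) (by norm_num) (by norm_num) hu
  obtain ⟨x', hx', v', hv', rfl⟩ := S.zsys8.split_ll (a := 1) (b := 8) (by norm_num) (by norm_num) hu'
  have hv2 : v ∈ J S.XZ 2 8 := J_mono (by norm_num) le_rfl hv
  have hv2' : v' ∈ J S.XZ 2 8 := J_mono (by norm_num) le_rfl hv'
  have hz : w * x' * w⁻¹ ∈ J S.XZ 2 8 := by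
    have := S.map_sub h (a := 1) (b := 1) (mem_J hx' le_rfl le_rfl)
    exact J_mono (by omega) (by omega) this
  have hz' : w⁻¹ * x * w ∈ J S.XZ 2 8 := by
    have := S.map_sub (maps_inv_sub h) (a := 1) (b := 1) (mem_J hx le_rfl le_rfl)
    rw [inv_inv] at this
    exact J_mono (by omega) (by omega) this
  have hxU : x ∈ J S.XZ 1 8 := mem_J hx (by norm_num) (by norm_num)
  have hn := (Subgroup.mem_normalizer_iff.1 (U_norm_V hxU) (w * x' * w⁻¹)).1 hz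
  refine ⟨v * (x * (w * x' * w⁻¹) * x⁻¹), mul_mem hv2 hn, w⁻¹ * x * w * v', mul_mem hz' hv2', ?_⟩
  group

/-- different cells -/
theorem dist [Finite G] (ho : Opp S) {k k' : G} {c c' : ℤ}
    (hk : Maps S.R.X k (fun k => ((2 * c : ℤ) : ZMod (2 * 8)) - k))
    (hk' : Maps S.R.X k' (fun k => ((2 * c' : ℤ) : ZMod (2 * 8)) - k)) (h2 : 2 ≤ c) (h : c < c') (h4 : c' ≤ 4)
    (hd : ∃ v ∈ J S.XZ 1 8, ∃ v' ∈ J S.XZ 1 8, k' = v * k * v') : False := by
  obtain ⟨v, hv, v', hv', e⟩ := hd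
  -- conjugation by `v'`
  have key : ∀ y ∈ J S.XZ 1 (2 * c' - 1), v' * y * v'⁻¹ ∈ J S.XZ 1 (2 * c - 1) := by
    intro y hy
    have hyU : y ∈ J S.XZ 1 8 := J_mono le_rfl (by omega) hy
    have h5 : v' * y * v'⁻¹ ∈ J S.XZ 1 8 := mul_mem (mul_mem hv' hyU) (inv_mem hv')
    have h6 : k' * y * k'⁻¹ ∈ J S.XZ 1 8 := J_mono (by omega) (by omega) (S.map_sub hk' hy)
    have h7 : k * (v' * y * v'⁻¹) * k⁻¹ ∈ J S.XZ 1 8 := by
      have e1 : k * (v' * y * v'⁻¹) * k⁻¹ = v⁻¹ * (k' * y * k'⁻¹) * v := by rw [e]; group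
      rw [e1]
      exact mul_mem (mul_mem (inv_mem hv) h6) hv
    have h8 := S.map_sub (maps_inv_sub hk) h7
    have e2 : k⁻¹ * (k * (v' * y * v'⁻¹) * k⁻¹) * k⁻¹⁻¹ = v' * y * v'⁻¹ := by group
    rw [e2] at h8
    exact inter_dn ho (a := 2 * c - 8) (b := 2 * c - 1) (by omega) (by omega) (by omega) h5 h8
  have h5 : Nat.card (J S.XZ 1 (2 * c' - 1)) ≤ Nat.card (J S.XZ 1 (2 * c - 1)) := by
    refine Nat.card_le_card_of_injective (fun y => (⟨v' * y.1 * v'⁻¹, key y.1 y.2⟩ : J S.XZ 1 (2 * c - 1))) ?_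
    intro y z hyz
    apply Subtype.ext
    have := congrArg Subtype.val hyz
    exact mul_left_cancel (mul_right_cancel this)
  have h6 : J S.XZ 1 (2 * c - 1) = J S.XZ 1 (2 * c' - 1) :=
    Subgroup.eq_of_le_of_card_ge (J_mono le_rfl (by omega)) h5
  obtain ⟨x, hx, hx1⟩ := S.zsys8.exists_ne (2 * c' - 1)
  apply hx1
  have h7 : x ∈ J S.XZ 1 (2 * c - 1) := by
    rw [h6]
    exact mem_J hx (by omega) le_rfl
  exact S.zsys8.inter' hx (J_mono (by omega) (by omega) h7)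

/-- the three elements -/
def wr (S : Full σ G) (i : Fin 3) : G := S.rot ^ (-((i : ℕ) : ℤ)) * S.n2

theorem wr_maps (i : Fin 3) :
    Maps S.R.X (wr S i) (fun k => ((2 * (4 - ((i : ℕ) : ℤ)) : ℤ) : ZMod (2 * 8)) - k) := by
  have h1 := (S.rot_maps (-((i : ℕ) : ℤ))).mul S.n2_maps
  refine h1.congr fun k => ?_
  simp only [Function.comp]
  push_cast
  ring

theorem odd_dc [Finite F] [Finite G] (ho : Opp S) (hR : S.R.p = 2) :
    Odd (Nat.card (DoubleCoset.Quotient (J S.XZ 2 8 : Set G) (J S.XZ 2 8 : Set G))) := by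
  refine odd_card (U := J S.XZ 1 8) (T := S.T) (isPGroup_J S.zsys8 (two_X S hR) 8 1 8 (by norm_num) (by norm_num))
    U_norm_V (T_norm 2 8) (fun t ht u hu => S.T_conj_J ht hu) (odd_T S) (wr S)
    (fun i => good_sub (wr_maps i) (by omega) (by omega)) ?_ ?_
  · intro g hg
    obtain ⟨b, hb, t, ht, w, hw, b', hb', e⟩ := S.bruhatE g
    have hgk : Db (J S.XZ 2 8) g (t * w) := by
      have := hg b⁻¹ (inv_mem hb) b'⁻¹ (inv_mem hb')
      have e1 : b⁻¹ * g * b'⁻¹ = t * w := by rw [e]; group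
      rwa [e1] at this
    have hk : Fx (J S.XZ 1 8) (J S.XZ 2 8) (t * w) := by
      intro u hu u' hu'
      have h1 := hg (u * b⁻¹) (mul_mem hu (inv_mem hb)) (b'⁻¹ * u') (mul_mem (inv_mem hb') hu')
      have e1 : u * b⁻¹ * g * (b'⁻¹ * u') = u * (t * w) * u' := by rw [e]; group
      rw [e1] at h1
      exact hgk.symm.trans h1
    have htm : Maps S.R.X t id := ht
    obtain ⟨c, hc | hc⟩ := hw
    · exact absurd hk (bad_add ho (c := c) ((htm.mul hc).congr fun k => rfl))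
    · obtain ⟨c', h1, h2, h3⟩ := Full.reduce c 2
      rw [h3] at hc
      have hkm : Maps S.R.X (t * w) (fun k => ((2 * c' : ℤ) : ZMod (2 * 8)) - k) := (htm.mul hc).congr fun k => rfl
      rcases le_or_gt 5 c' with h5 | h5
      · exact absurd hk (bad_sub ho hkm h5 (by omega))
      obtain ⟨i, hi⟩ : ∃ i : Fin 3, c' = 4 - ((i : ℕ) : ℤ) := by
        refine ⟨⟨(4 - c').toNat, by omega⟩, ?_⟩
        show c' = 4 - (((4 - c').toNat : ℕ) : ℤ)
        omega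
      refine ⟨i, t * w * (wr S i)⁻¹, ?_, ?_⟩
      · have h6 := hkm.mul (maps_inv_sub (wr_maps (S := S) i))
        refine h6.congr fun k => ?_
        simp only [Function.comp, id, hi]
        ring
      · have e1 : t * w * (wr S i)⁻¹ * wr S i = t * w := by group
        rw [e1]
        exact hgk
  · have key : ∀ (i j : Fin 3) (t : G), t ∈ S.T → (j : ℕ) < (i : ℕ) → ¬ Db (J S.XZ 2 8) (t * wr S i) (wr S j) := by
      intro i j t ht hij hD
      obtain ⟨v, hv, v', hv', e⟩ := hD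
      have htm : Maps S.R.X t id := ht
      exact dist ho (c := 4 - ((i : ℕ) : ℤ)) (c' := 4 - ((j : ℕ) : ℤ)) (k := t * wr S i) (k' := wr S j)
        ((htm.mul (wr_maps i)).congr fun k => rfl) (wr_maps j) (by omega) (by omega) (by omega)
        ⟨v, V_le_U hv, v', V_le_U hv', e⟩
    intro i j t ht hD
    rcases lt_trichotomy (i : ℕ) (j : ℕ) with h | h | h
    · exfalso
      refine key j i t⁻¹ (inv_mem ht) h ?_
      obtain ⟨v, hv, v', hv', e⟩ := hD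
      refine ⟨t⁻¹ * v⁻¹ * t, ?_, v'⁻¹, inv_mem hv', ?_⟩
      · have := S.T_conj_J (inv_mem ht) (inv_mem hv)
        rwa [inv_inv] at this
      · rw [e]
        group
    · exact Fin.ext h
    · exact absurd hD (key i j t ht h)

end Cfsg.Agent.H735.EB.TwF4
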