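import Cfsg.Agent.H735.EB.TwF4
import Cfsg.Agent.H694.EB.Two
import Cfsg.Agent.H104.EB.COne

/-!
# `²F₄(q)`, `q ≥ 8`: data for criterion (T) (helper735)

* `CharTwo G`: every centralizer of an involution has a normal self-centralizing 2-subgroup;
* `TwData G`: the data of criterion (T);
* `charTwo_2F4`, `twData_2F4`, `dz_2F4`.
-/

set_option autoImplicit false
set_option linter.unusedSectionVars false

namespace Cfsg.Agent.H735.EB

open Cfsg Subgroup

universe u v

/-- `C(t)` is constrained -/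
def GoodInv {G : Type u} [Group G] (t : G) : Prop :=
  ∃ E : Subgroup G, IsPGroup 2 E ∧ E ≤ centralizer ({t} : Set G) ∧
    (∀ g ∈ centralizer ({t} : Set G), ∀ x ∈ E, g * x * g⁻¹ ∈ E) ∧ centralizer (E : Set G) ≤ E

/-- all involutions have constrained centralizers -/
def CharTwo (G : Type u) [Group G] : Prop := ∀ t : G, orderOf t = 2 → GoodInv t

/-- the data of criterion (T) -/
def TwData (G : Type u) [Group G] : Prop :=
  ∃ U V : Subgroup G, IsPGroup 2 U ∧ Odd U.index ∧ V ≤ U ∧ V ≠ U ∧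
    (∀ α : G ≃* G, U.map α.toMonoidHom = U → V.map α.toMonoidHom = V) ∧
    Odd (Nat.card (DoubleCoset.Quotient (V : Set G) (V : Set G)))

section transport

variable {G : Type u} {G' : Type v} [Group G] [Group G']

theorem GoodInv.map {t : G} (h : GoodInv t) (e : G ≃* G') : GoodInv (e t) := by
  obtain ⟨E, hE, hEC, hN, hC⟩ := h
  have hc : ∀ x : G', x ∈ centralizer ({e t} : Set G') ↔ e.symm x ∈ centralizer ({t} : Set G) := by
    intro x
    rw [mem_centralizer_singleton_iff, mem_centralizer_singleton_iff]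
    constructor
    · intro h
      apply e.injective
      rw [map_mul, map_mul, MulEquiv.apply_symm_apply]
      exact h
    · intro h
      have h1 := congrArg e h
      rwa [map_mul, map_mul, MulEquiv.apply_symm_apply] at h1
  have hm : ∀ x : G', x ∈ E.map e.toMonoidHom ↔ e.symm x ∈ E := by
    intro x
    constructor
    · rintro ⟨y, hy, rfl⟩
      have : e.symm (e.toMonoidHom y) = y := e.symm_apply_apply y
      rw [this]
      exact hy
    · intro hx
      exact ⟨e.symm x, hx, e.apply_symm_apply x⟩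
  refine ⟨E.map e.toMonoidHom, hE.map _, ?_, ?_, ?_⟩
  · intro x hx
    rw [hc]
    exact hEC ((hm x).1 hx)
  · intro g hg x hx
    rw [hm, map_mul, map_mul, map_inv]
    exact hN _ ((hc g).1 hg) _ ((hm x).1 hx)
  · intro x hx
    rw [hm]
    apply hC
    rw [mem_centralizer_iff]
    intro y hy
    have h1 := mem_centralizer_iff.1 hx (e y) ⟨y, hy, rfl⟩
    apply e.injective
    rw [map_mul, map_mul, MulEquiv.apply_symm_apply]
    exact h1

theorem CharTwo.congr (h : CharTwo G) (e : G ≃* G') : CharTwo G' := by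
  intro t ht
  have h1 := (h (e.symm t) (by rw [MulEquiv.orderOf_eq]; exact ht)).map e
  rwa [MulEquiv.apply_symm_apply] at h1

theorem map_eq_iff {H : Subgroup G} {α : G ≃* G} : H.map α.toMonoidHom = H ↔ ∀ x, α x ∈ H ↔ x ∈ H := by
  constructor
  · intro h x
    constructor
    · intro hx
      rw [← h] at hx
      obtain ⟨y, hy, hyx⟩ := hx
      have : y = x := α.injective hyx
      rwa [← this]
    · intro hx
      rw [← h]
      exact ⟨x, hx, rfl⟩
  · intro h
    ext x
    constructor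
    · rintro ⟨y, hy, rfl⟩
      exact (h y).2 hy
    · intro hx
      refine ⟨α.symm x, ?_, α.apply_symm_apply x⟩
      have h1 : α (α.symm x) ∈ H := by rw [α.apply_symm_apply]; exact hx
      exact (h _).1 h1

theorem TwData.congr (h : TwData G) (e : G ≃* G') : TwData G' := by
  obtain ⟨U, V, hU, hUi, hVU, hne, hst, hodd⟩ := h
  have hm : ∀ (H : Subgroup G) (x : G'), x ∈ H.map e.toMonoidHom ↔ e.symm x ∈ H := by
    intro H x
    constructor
    · rintro ⟨y, hy, rfl⟩
      have : e.symm (e.toMonoidHom y) = y := e.symm_apply_apply y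
      rw [this]
      exact hy
    · intro hx
      exact ⟨e.symm x, hx, e.apply_symm_apply x⟩
  refine ⟨U.map e.toMonoidHom, V.map e.toMonoidHom, hU.map _, ?_, Subgroup.map_mono hVU, ?_, ?_, ?_⟩
  · have h1 : (U.map e.toMonoidHom).index = U.index := by
      have := Subgroup.index_map_equiv U e
      exact this
    rw [h1]
    exact hUi
  · intro h1
    apply hne
    exact Subgroup.map_injective e.injective h1
  · intro α hα
    rw [map_eq_iff] at hα ⊢
    have h1 : U.map (e.trans (α.trans e.symm)).toMonoidHom = U := by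
      rw [map_eq_iff]
      intro x
      have h2 := hα (e x)
      rw [hm, hm, MulEquiv.symm_apply_apply] at h2
      exact h2
    have h2 := map_eq_iff.1 (hst _ h1)
    intro x
    rw [hm, hm]
    have h3 := h2 (e.symm x)
    have h4 : (e.trans (α.trans e.symm)) (e.symm x) = e.symm (α x) := by
      show e.symm (α (e (e.symm x))) = _
      rw [MulEquiv.apply_symm_apply]
    rwa [h4] at h3
  · have h1 : Nat.card (DoubleCoset.Quotient ((V.map e.toMonoidHom : Subgroup G') : Set G')
        ((V.map e.toMonoidHom : Subgroup G') : Set G')) =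
        Nat.card (DoubleCoset.Quotient (V : Set G) (V : Set G)) := by
      refine (Nat.card_congr (Quotient.congr e.toEquiv ?_)).symm
      intro a b
      refine Iff.trans (show _ ↔ Db V a b from DoubleCoset.rel_iff) (Iff.trans ?_
        (show Db (V.map e.toMonoidHom) (e a) (e b) ↔ _ from DoubleCoset.rel_iff.symm))
      constructor
      · rintro ⟨v, hv, v', hv', rfl⟩
        exact ⟨e v, ⟨v, hv, rfl⟩, e v', ⟨v', hv', rfl⟩, by rw [map_mul, map_mul]⟩
      · rintro ⟨_, ⟨v, hv, rfl⟩, _, ⟨v', hv', rfl⟩, h2⟩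
        refine ⟨v, hv, v', hv', e.injective ?_⟩
        rw [map_mul, map_mul]
        exact h2
    rw [h1]
    exact hodd

end transport

/-- characters outside the principal block have defect zero -/
theorem dz_of_charTwo {S : Type u} [Group S] [Finite S] (h : CharTwo S) : H694.EB.DZ S := by
  intro _ M hM χ hχ
  refine H104.EB.COne.defectZero_of_charTwo hM (fun t ht => ?_) χ hχ
  obtain ⟨E, hE, hEC, hN, hC⟩ := h t ht
  refine ⟨E.subgroupOf (centralizer ({t} : Set S)), ⟨fun x hx g => ?_⟩, hE.comap_subtype, ?_⟩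
  · rw [mem_subgroupOf] at hx ⊢
    exact hN _ g.2 _ hx
  · intro x hx
    rw [mem_subgroupOf]
    apply hC
    rw [mem_centralizer_iff]
    intro y hy
    have h1 := mem_centralizer_iff.1 hx ⟨y, hEC hy⟩ (mem_subgroupOf.2 hy)
    exact congrArg Subtype.val h1

end Cfsg.Agent.H735.EB

namespace Cfsg.Agent.H735.EB.TwF4

open Cfsg Cfsg.Agent.SplitTwo Cfsg.Agent.SplitTwo.ZS Cfsg.Agent.TitsThree.RankTwoZ
open Cfsg.Agent.KFacts.TwF4 Cfsg.Agent.KFacts.TwF4.Arc Cfsg.Agent.KFacts.TwF4.SylU Cfsg.Agent.KFacts.TwF4.AutNorm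
open Cfsg.Agent.KFacts.TwF4.Inv Cfsg.Agent.KFacts.TwF4.Perf

universe u

section

variable {F : Type*} [Field F] {σ : F →+* F} {G : Type u} [Group G] (S : Full σ G)

theorem goodInv_of_cj {t s : G} (h : Cj t s) (hs : GoodInv s) : GoodInv t := by
  obtain ⟨k, hk⟩ := h
  have h1 := hs.map (MulAut.conj k⁻¹ : G ≃* G)
  have h2 : (MulAut.conj k⁻¹ : G ≃* G) s = t := by
    rw [MulAut.conj_apply, ← hk]
    group
  rwa [h2] at h1

theorem charTwo [Finite F] [Finite G] (hF : ∃ c : Fˣ, c ≠ 1) (hR : S.R.p = 2) : CharTwo G := by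
  intro t ht
  have h1 : t * t = 1 := by
    rw [← pow_two, ← ht]
    exact pow_orderOf_eq_one t
  have h2 : t ≠ 1 := by
    rintro rfl
    rw [orderOf_one] at ht
    omega
  rcases classes S hF hR h1 h2 with ⟨u, hu, hc⟩ | ⟨s, hs, hc⟩
  · refine goodInv_of_cj hc ?_
    have hz : S.e 0 0 u ∈ S.Zc ((0 : ℤ) : ZMod 8) := ⟨u, by rw [Int.cast_zero]⟩
    have hz1 : S.e 0 0 u ≠ 1 := fun h => hu (S.e_eq_one h).2
    have hC := S.centralizer_Zc 0 hz hz1
    have hE := S.centralizer_J 0
    norm_num at hC hE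
    refine ⟨J S.XZ (-3) 3, isPGroup_J S.zsys8 (two_X S hR) 8 (-3) 3 (by norm_num) (by norm_num), ?_, ?_, ?_⟩
    · rw [hC]
      exact J_mono (by norm_num) (by norm_num)
    · intro g hg x hx
      rw [hC] at hg
      exact S.zsys8.conj_J (a := -3) (b := 3) (by norm_num) (by norm_num) (by norm_num) hg hx
    · rw [hE]
      intro x hx
      have h3 := S.Zc_le 0
      rw [Int.cast_zero] at h3
      exact mem_J (h3 hx) (by norm_num) (by norm_num)
  · have hc2 : Cj t (S.o 2 s) := by
      refine hc.trans ⟨S.rot ^ (2 : ℤ), ?_⟩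
      rw [S.rotk_o]
      congr 1
    refine goodInv_of_cj hc2 ?_
    have hC := S.centralizer_o hs
    refine ⟨S.NO, two_NO S hR, ?_, ?_, ?_⟩
    · rw [hC]
      exact NO_HO S
    · intro g hg x hx
      rw [hC] at hg
      exact NO_norm S hg hx
    · rw [S.centralizer_NO]
      exact S.V5_le_NO

theorem twData [Finite F] [Finite G] (ho : Opp S) (hF : ∃ c : Fˣ, c ≠ 1) (hR : S.R.p = 2) : TwData G := by
  have hfact : Fact (Nat.Prime 2) := ⟨Nat.prime_two⟩
  refine ⟨J S.XZ 1 8, J S.XZ 2 8, isPGroup_J S.zsys8 (two_X S hR) 8 1 8 (by norm_num) (by norm_num), ?_, V_le_U, ?_,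
    ?_, odd_dc ho hR⟩
  · obtain ⟨P, hP⟩ := exists_sylow S hF hR
    rw [← hP, ← Nat.not_even_iff_odd, even_iff_two_dvd]
    exact P.not_dvd_index
  · intro h
    obtain ⟨x, hx, hx1⟩ := exists_x (S := S)
    apply hx1
    rw [h]
    exact mem_J hx (by norm_num) (by norm_num)
  · intro α hα
    rw [map_eq_iff] at hα ⊢
    exact fun x => J28_of_U (α := α) hα x

end

section model

open Cfsg.Lie Cfsg.Agent.ChevalleyStructure.TwF4.Rel Cfsg.Agent.ChevalleyStructure.TwF4.Fix
open Cfsg.Agent.ChevalleyStructure.TwF4.Groups Cfsg.Agent.ChevalleyStructure.TwF4.RankOne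
open Cfsg.Agent.ChevalleyStructure.TwF4.Twisted Cfsg.Agent.ChevalleyStructure.TwF4.TwistedFix
open Cfsg.Agent.ChevalleyStructure.TwF4.BN
open Cfsg.Agent.Octagon.Pkg Cfsg.Agent.Octagon.KRel Cfsg.Agent.Octagon.KSys Cfsg.Agent.Octagon.KPar
open Cfsg.Agent.KFacts.TwF4.Inst

variable {K : Type*} [Field K] [CharP K 2] {m : ℕ} {φ : K →+* K}

theorem XX_neg {e : ℕ} (k : ℕ) (h1 : 9 ≤ k) (h2 : k ≤ 16) :
    XX K e ((k : ℕ) : ZMod (2 * 8)) ≤ (GA K negB).comap (twistedF4 K e).subtype := by
  intro x hx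
  have h0 : rep ((k : ℕ) : ZMod (2 * 8)) = k := by interval_cases k <;> decide
  have hx' : (x : GL chevF4.Idx K) ∈ GA K (clsB (rep ((k : ℕ) : ZMod (2 * 8)))) := hx
  rw [h0] at hx'
  exact neg_le_neg' (cls_neg (by omega)) hx'

/-- `U ∩ U⁻ = 1` -/
theorem opp [Fintype K] (hK : Fintype.card K = 2 ^ (2 * m + 1)) (hφ : Rln φ (2 ^ m)) : Opp (full hK hφ) := by
  intro x h1 h2
  have k1 : J (full hK hφ).XZ 1 8 ≤ Cfsg.Agent.Schreier.TwFFour.U0 K (2 ^ m) := by
    refine J_le fun k h3 h4 => ?_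
    obtain ⟨n, rfl⟩ := Int.eq_ofNat_of_zero_le (by omega : 0 ≤ k)
    exact XX_pos n (by exact_mod_cast h3) (by exact_mod_cast h4)
  have k2 : J (full hK hφ).XZ 9 16 ≤ (GA K negB).comap (twistedF4 K (2 ^ m)).subtype := by
    refine J_le fun k h3 h4 => ?_
    obtain ⟨n, rfl⟩ := Int.eq_ofNat_of_zero_le (by omega : 0 ≤ k)
    exact XX_neg n (by exact_mod_cast h3) (by exact_mod_cast h4)
  exact Subtype.ext (borel_inf_negB _ (U_le_borel (k1 h1)) (k2 h2))

end model

theorem both {G : Type u} [Group G] (h : Lie.Iso2F4 G) : Finite G ∧ CharTwo G ∧ TwData G := by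
  obtain ⟨K, _, _, m, hm, hK, ⟨e⟩⟩ := h
  have : CharP K 2 := Cfsg.Agent.ChevalleyStructure.TwF4.Twisted.charP_two hK
  obtain ⟨φ, hφ⟩ := Cfsg.Agent.ChevalleyStructure.TwF4.TwistedFix.exists_rln hK
  have hfin : Finite (GL Lie.chevF4.Idx K) := inferInstance
  have h2 : 2 < Fintype.card K := by
    rw [hK]
    calc 2 < 2 ^ 3 := by norm_num
      _ ≤ 2 ^ (2 * m + 1) := Nat.pow_le_pow_right (by norm_num) (by omega)
  have hF : ∃ c : Kˣ, c ≠ 1 := by
    classical
    by_contra hcon
    push Not at hcon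
    have h3 : Fintype.card Kˣ ≤ 1 := Fintype.card_le_one_iff.2 fun a b => (hcon a).trans (hcon b).symm
    rw [Fintype.card_units] at h3
    omega
  let S := Cfsg.Agent.KFacts.TwF4.Inst.full hK hφ
  have : Finite ↥(Lie.twistedF4 K (2 ^ m)) := inferInstance
  refine ⟨Finite.of_equiv _ e.symm.toEquiv, ?_, ?_⟩
  · exact (charTwo S hF rfl).congr e.symm
  · exact (twData S (opp hK hφ) hF rfl).congr e.symm

end Cfsg.Agent.H735.EB.TwF4
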